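import Mathlib

/-!
# Products of two elementwise commuting subgroups
-/

set_option autoImplicit false

namespace Cfsg.Agent.Lib.Helper61.BG40

universe u

variable {G : Type u} [Group G]

/-- The product homomorphism of two elementwise commuting subgroups. -/
noncomputable def prodHom (P Q : Subgroup G) (hcomm : ∀ a ∈ P, ∀ b ∈ Q, a * b = b * a) :
    ↥P × ↥Q →* G :=
  MonoidHom.noncommCoprod P.subtype Q.subtype
    (fun a b => show Commute (P.subtype a) (Q.subtype b) from hcomm a a.2 b b.2)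

theorem prodHom_apply (P Q : Subgroup G) (hcomm : ∀ a ∈ P, ∀ b ∈ Q, a * b = b * a)
    (v : ↥P × ↥Q) : prodHom P Q hcomm v = (v.1 : G) * (v.2 : G) := rfl

theorem prodHom_range (P Q : Subgroup G) (hcomm : ∀ a ∈ P, ∀ b ∈ Q, a * b = b * a) :
    (prodHom P Q hcomm).range = P ⊔ Q := by
  rw [prodHom, MonoidHom.noncommCoprod_range, Subgroup.range_subtype, Subgroup.range_subtype]

theorem mem_sup_of_commute (P Q : Subgroup G) (hcomm : ∀ a ∈ P, ∀ b ∈ Q, a * b = b * a)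
    {y : G} (hy : y ∈ P ⊔ Q) : ∃ a ∈ P, ∃ b ∈ Q, y = a * b := by
  rw [← prodHom_range P Q hcomm] at hy
  obtain ⟨v, rfl⟩ := hy
  exact ⟨v.1, v.1.2, v.2, v.2.2, rfl⟩

theorem prodHom_injective (P Q : Subgroup G) (hcomm : ∀ a ∈ P, ∀ b ∈ Q, a * b = b * a)
    (hd : P ⊓ Q = ⊥) : Function.Injective (prodHom P Q hcomm) := by
  rw [prodHom, MonoidHom.noncommCoprod_injective]
  refine ⟨Subgroup.subtype_injective _, Subgroup.subtype_injective _, ?_⟩
  rw [Subgroup.range_subtype, Subgroup.range_subtype, disjoint_iff, hd]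

theorem card_sup_of_commute (P Q : Subgroup G) (hcomm : ∀ a ∈ P, ∀ b ∈ Q, a * b = b * a)
    (hd : P ⊓ Q = ⊥) : Nat.card ↥(P ⊔ Q) = Nat.card ↥P * Nat.card ↥Q := by
  rw [← prodHom_range P Q hcomm, ← Nat.card_prod]
  exact (Nat.card_congr (MonoidHom.ofInjective (prodHom_injective P Q hcomm hd)).toEquiv).symm

theorem isMulCommutative_sup_of_commute (P Q : Subgroup G)
    (hcomm : ∀ a ∈ P, ∀ b ∈ Q, a * b = b * a) (hP : IsMulCommutative ↥P)
    (hQ : IsMulCommutative ↥Q) : IsMulCommutative ↥(P ⊔ Q) := by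
  refine ⟨⟨fun y1 y2 => ?_⟩⟩
  obtain ⟨a1, ha1, b1, hb1, h1⟩ := mem_sup_of_commute P Q hcomm y1.2
  obtain ⟨a2, ha2, b2, hb2, h2⟩ := mem_sup_of_commute P Q hcomm y2.2
  have hPc : a1 * a2 = a2 * a1 := congrArg Subtype.val (hP.is_comm.comm ⟨a1, ha1⟩ ⟨a2, ha2⟩)
  have hQc : b1 * b2 = b2 * b1 := congrArg Subtype.val (hQ.is_comm.comm ⟨b1, hb1⟩ ⟨b2, hb2⟩)
  apply Subtype.ext
  show (y1 : G) * y2 = y2 * y1
  rw [h1, h2]
  calc a1 * b1 * (a2 * b2) = a1 * (b1 * a2) * b2 := by group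
    _ = a1 * (a2 * b1) * b2 := by rw [hcomm a2 ha2 b1 hb1]
    _ = (a1 * a2) * (b1 * b2) := by group
    _ = (a2 * a1) * (b2 * b1) := by rw [hPc, hQc]
    _ = a2 * (a1 * b2) * b1 := by group
    _ = a2 * (b2 * a1) * b1 := by rw [hcomm a1 ha1 b2 hb2]
    _ = a2 * b2 * (a1 * b1) := by group

end Cfsg.Agent.Lib.Helper61.BG40
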